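import Mathlib
import Cfsg.Agent.FGS.PClassCount
import Cfsg.Agent.Char.RelDeg
import Cfsg.Agent.Transfer.Wielandt
import Cfsg.Agent.Solv.CoprimeSylow

/-! Groups with many classes of `π`-elements: basic tools. -/

set_option autoImplicit false
set_option linter.unusedSectionVars false

namespace Cfsg.Agent.PiCls

open Cfsg Cfsg.Agent.FGS.PCC Cfsg.Agent.Char Subgroup
open scoped Pointwise

universe u

/-- The `π`-part of a number. -/
noncomputable def pp (π : Finset ℕ) (n : ℕ) : ℕ := π.prod fun r => r ^ n.factorization r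

section pp
variable {π : Finset ℕ} (hπ : ∀ r ∈ π, r.Prime)

theorem pp_mul {a b : ℕ} (ha : a ≠ 0) (hb : b ≠ 0) : pp π (a * b) = pp π a * pp π b := by
  simp only [pp, Nat.factorization_mul ha hb, Finsupp.add_apply, pow_add, Finset.prod_mul_distrib]

theorem pp_eq_one {n : ℕ} (h : ∀ q ∈ π, ¬ q ∣ n) : pp π n = 1 :=
  Finset.prod_eq_one fun r hr => by rw [Nat.factorization_eq_zero_of_not_dvd (h r hr), pow_zero]

theorem pp_eq_self {n : ℕ} (hn : n ≠ 0) (h : ∀ q : ℕ, q.Prime → q ∣ n → q ∈ π) : pp π n = n := by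
  conv_rhs => rw [← Nat.prod_factorization_pow_eq_self hn]
  refine (Finset.prod_subset (fun q hq => ?_) fun q _ hq => ?_).symm
  · exact h q (Nat.prime_of_mem_primeFactors hq) (Nat.dvd_of_mem_primeFactors hq)
  · rw [Finsupp.notMem_support_iff.1 hq, pow_zero]

include hπ in
theorem le_pp {n q p : ℕ} (hn : n ≠ 0) (hp : ∀ r ∈ π, p ≤ r) (hq : q ∈ π) (hd : q ∣ n) :
    p ≤ pp π n :=
  (hp q hq).trans (Nat.le_of_dvd (Finset.prod_pos fun r hr => pow_pos (hπ r hr).pos _)
    ((dvd_pow_self q ((hπ q hq).factorization_pos_of_dvd hn hd).ne').trans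
      (Finset.dvd_prod_of_mem (fun r => r ^ n.factorization r) hq)))

end pp

variable {G : Type u} [Group G] [Finite G] {π : Finset ℕ} {p : ℕ}

/-- `π`-subgroups. -/
def Pi (π : Finset ℕ) (X : Subgroup G) : Prop := ∀ q : ℕ, q.Prime → q ∣ Nat.card X → q ∈ π

/-- Nilpotent Hall `π`-subgroups. -/
structure IsH (π : Finset ℕ) (H : Subgroup G) : Prop where
  nil : Group.IsNilpotent H
  pi : Pi π H
  ind : ∀ q ∈ π, ¬ q ∣ H.index

theorem card_eq_part {H : Subgroup G} (h1 : Pi π H) (h2 : ∀ q ∈ π, ¬ q ∣ H.index) :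
    Nat.card H = part π G := by
  change _ = pp π (Nat.card G)
  rw [← H.card_mul_index, pp_mul Nat.card_pos.ne' index_ne_zero_of_finite, pp_eq_one h2,
    pp_eq_self Nat.card_pos.ne' h1, mul_one]

theorem mul_part_le (hπ : ∀ r ∈ π, r.Prime) (hp : ∀ r ∈ π, p ≤ r) {C : Subgroup G} {q : ℕ}
    (hq : q ∈ π) (hd : q ∣ C.index) : p * part π C ≤ part π G := by
  change p * pp π (Nat.card C) ≤ pp π (Nat.card G)
  rw [← C.card_mul_index, pp_mul Nat.card_pos.ne' index_ne_zero_of_finite, mul_comm]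
  exact Nat.mul_le_mul_left _ (le_pp hπ index_ne_zero_of_finite hp hq hd)

theorem Pi.zpowers {y : G} (h : ∀ q : ℕ, q.Prime → q ∣ orderOf y → q ∈ π) : Pi π (zpowers y) :=
  fun q hq hd => h q hq (Nat.card_zpowers y ▸ hd)

theorem Pi.sup {X Y : Subgroup G} (hX : Pi π X) (hY : Pi π Y) (h : X ≤ normalizer (Y : Set G)) :
    Pi π (X ⊔ Y) := fun q hq hd =>
  (hq.dvd_mul.1 (hd.trans (Grp.card_sup_dvd_of_le_normalizer h))).elim (hX q hq) (hY q hq)

theorem Pi.of_isPGroup {q : ℕ} (hq : q.Prime) (h : q ∈ π) {X : Subgroup G} (hX : IsPGroup q X) :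
    Pi π X := fun r hr hd => by
  haveI := Fact.mk hq
  obtain ⟨k, hk⟩ := IsPGroup.iff_card.1 hX
  rwa [(Nat.prime_dvd_prime_iff_eq hr hq).1 (hr.dvd_of_dvd_pow (hk ▸ hd))]

theorem IsH.conj {H : Subgroup G} (h : IsH π H) (g : G) : IsH π (MulAut.conj g • H) :=
  ⟨haveI := h.nil; Group.nilpotent_of_mulEquiv (H.equivMapOfInjective (MulAut.conj g).toMonoidHom
      (MulAut.conj g).injective), fun q hq hd => h.pi q hq (Grp.card_conj_smul g H ▸ hd),
    fun q hq hd => h.ind q hq (H.index_map_equiv (MulAut.conj g) ▸ hd)⟩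

theorem IsH.sub {H K : Subgroup G} (h : IsH π H) (hK : H ≤ K) : IsH π (H.subgroupOf K) :=
  ⟨haveI := h.nil; Group.nilpotent_of_mulEquiv (subgroupOfEquivOfLe hK).symm,
    fun q hq hd => h.pi q hq (Grp.card_subgroupOf_of_le hK ▸ hd),
    fun q hq hd => h.ind q hq (hd.trans (relIndex_dvd_index_of_le hK))⟩

theorem IsH.map {K : Subgroup G} {H : Subgroup K} (h : IsH π H) (hπ : ∀ r ∈ π, r.Prime)
    (hK : ∀ q ∈ π, ¬ q ∣ K.index) : IsH π (H.map K.subtype) :=
  ⟨haveI := h.nil; Group.nilpotent_of_mulEquiv (H.equivMapOfInjective K.subtype K.subtype_injective),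
    fun q hq hd => h.pi q hq (card_map_of_injective (K := H) K.subtype_injective ▸ hd),
    fun q hq hd => ((hπ q hq).dvd_mul.1 (index_map_subtype H ▸ hd)).elim (h.ind q hq) (hK q hq)⟩

/-- Wielandt's theorem. -/
theorem IsH.wiel {H K X : Subgroup G} (h : IsH π H) (hK : H ≤ K) (hXK : X ≤ K) (hX : Pi π X) :
    ∃ g ∈ K, X ≤ MulAut.conj g • H := by
  haveI := h.nil
  obtain ⟨x, hx, h1⟩ := Transfer.exists_cj_le_of_nilpotent_hall hK X hXK
    (Nat.coprime_of_dvd fun q hq h1 h2 =>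
      h.ind q (hX q hq h1) (h2.trans (relIndex_dvd_index_of_le hK)))
  exact ⟨x⁻¹, inv_mem hx, PLocal.Amb.cj_le_iff.mp h1⟩

theorem exists_pgroup (hp : p.Prime) (H : Subgroup G) :
    ∃ P : Subgroup G, P ≤ H ∧ IsPGroup p P ∧ ¬ p ∣ P.relIndex H ∧
      ∀ x ∈ H, (∃ k, x ^ p ^ k = 1) → ∃ g ∈ H, g⁻¹ * x * g ∈ P := by
  haveI := Fact.mk hp
  let Q : Sylow p H := default
  refine ⟨(Q : Subgroup H).map H.subtype, map_subtype_le _, Q.isPGroup'.map _, ?_,
    fun x hx hk => ?_⟩
  · rw [relIndex, subgroupOf, comap_map_eq_self_of_injective H.subtype_injective]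
    exact Q.not_dvd_index
  · obtain ⟨R, hR⟩ := (PLocal.Amb.isPGroup_zpowers (p := p) (x := (⟨x, hx⟩ : H))
      (hk.imp fun k hk => Subtype.ext hk)).exists_le_sylow
    obtain ⟨g, rfl⟩ := MulAction.exists_smul_eq H Q R
    exact ⟨g, g.2, _, Grp.mem_conj_smul_iff.1 (hR (mem_zpowers _)), rfl⟩

theorem char_bound (hp : ∀ q : ℕ, q.Prime → q ∣ Nat.card G → p ≤ q) :
    p ^ 2 * Nat.card (ConjClasses G) + (commutator G).index ≤
      p ^ 2 * (commutator G).index + Nat.card G := by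
  classical
  have h1 : Nat.card (G →* ℂˣ) = (commutator G).index :=
    (Nat.card_congr Abelianization.lift).trans
      (CommGroup.card_monoidHom_of_hasEnoughRootsOfUnity (Abelianization G) ℂ)
  rw [← h1, ← card_linear_irr, ← card_irr, ← sum_charDegree_sq (G := G), Finset.card_filter,
    Nat.card_eq_fintype_card, Fintype.card_eq_sum_ones, Finset.mul_sum, Finset.mul_sum,
    ← Finset.sum_add_distrib, ← Finset.sum_add_distrib]
  refine Finset.sum_le_sum fun χ _ => ?_
  split_ifs with h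
  · rw [h]; omega
  · obtain ⟨q, hq, hd⟩ := Nat.exists_prime_and_dvd h
    have := Nat.pow_le_pow_left ((hp q hq (hd.trans (charDegree_irr_dvd_card χ))).trans
      (Nat.le_of_dvd (charDegree_irr_pos χ) hd)) 2
    omega

theorem small_comm (h2 : 2 ≤ p) (hp : ∀ q : ℕ, q.Prime → q ∣ Nat.card G → p ≤ q)
    (h : Nat.card G < p * Nat.card (ConjClasses G)) :
    Nat.card (commutator G) ≤ p ∧ Group.IsNilpotent G := by
  have h1 := char_bound hp
  have h3 := (commutator G).card_mul_index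
  have h4 : 0 < (commutator G).index := Nat.pos_of_ne_zero index_ne_zero_of_finite
  have h5 : Nat.card (commutator G) ≤ p := by
    by_contra h5
    obtain ⟨t, rfl⟩ := Nat.exists_eq_add_of_le h2
    have h6 : (2 + t + 1) * (commutator G).index ≤ Nat.card G :=
      h3 ▸ Nat.mul_le_mul_right _ (by omega)
    nlinarith
  refine ⟨h5, ?_⟩
  have h6 : commutator G ≤ center G := fun x hx => by
    by_contra h7
    have x1 : x ≠ 1 := fun e => h7 (e ▸ one_mem _)
    obtain ⟨q, hq, hd⟩ := Nat.exists_prime_and_dvd (n := (centralizer {x}).index) fun e =>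
      h7 (centralizer_eq_top_iff_subset.1 (index_eq_one.1 e) rfl)
    have h8 : (centralizer {x}).index ≤ Nat.card {y : commutator G // y ≠ 1} :=
      Nat.card_le_card_of_injective (Quotient.lift (s := QuotientGroup.leftRel _)
        (fun g => (⟨⟨g * x * g⁻¹, Normal.conj_mem inferInstance x hx g⟩, fun e => x1 (by
          simpa using e)⟩ : {y : commutator G // y ≠ 1})) fun a b hab => by
            have := mem_centralizer_singleton_iff.1 (QuotientGroup.leftRel_apply.1 hab)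
            ext
            calc a * x * a⁻¹ = a * (x * (a⁻¹ * b)) * b⁻¹ := by group
              _ = b * x * b⁻¹ := by rw [← this]; group) (by
        rintro ⟨a⟩ ⟨b⟩ e
        have e' : a * x * a⁻¹ = b * x * b⁻¹ := congrArg (fun y => (y.1 : G)) e
        refine QuotientGroup.eq.2 (mem_centralizer_singleton_iff.2 ?_)
        calc a⁻¹ * b * x = a⁻¹ * (b * x * b⁻¹) * b := by group
          _ = _ := by rw [← e']; group)
    have h9 : Nat.card {y : commutator G // y ≠ 1} < Nat.card (commutator G) :=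
      Finite.card_subtype_lt (x := 1) (by simp)
    have := (hp q hq (hd.trans (index_dvd_card _))).trans
      (Nat.le_of_dvd (Nat.pos_of_ne_zero index_ne_zero_of_finite) hd)
    omega
  exact Subgroup.isNilpotent_of_ker_le_center (Abelianization.of (G := G))
    (by rwa [Abelianization.ker_of])

theorem comm_of_many (h2 : 2 ≤ p) (hp : ∀ q : ℕ, q.Prime → q ∣ Nat.card G → p ≤ q)
    (h : Nat.card G * (p ^ 2 + p - 1) < p ^ 3 * Nat.card (ConjClasses G)) :
    IsMulCommutative G := by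
  have h1 := char_bound hp
  have h3 := (commutator G).card_mul_index
  rw [← _root_.commutator_eq_bot_iff]
  by_contra h4
  obtain ⟨q, hq, hd⟩ := Nat.exists_prime_and_dvd (n := Nat.card (commutator G))
    fun e => h4 (card_eq_one.1 e)
  have h5 : p * (commutator G).index ≤ Nat.card G := h3 ▸ Nat.mul_le_mul_right _
    ((hp q hq (hd.trans (card_subgroup_dvd_card _))).trans (Nat.le_of_dvd Nat.card_pos hd))
  obtain ⟨t, rfl⟩ := Nat.exists_eq_add_of_le h2
  rw [show (2 + t) ^ 2 + (2 + t) - 1 = t ^ 2 + 5 * t + 5 by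
    refine Nat.sub_eq_of_eq_add ?_; ring] at h
  nlinarith [Nat.mul_le_mul_left (t ^ 2 + 4 * t + 3) h5, Nat.mul_le_mul_left (2 + t) h1]

theorem kpi_le_card {α : Type*} [Finite α] (f : α → G)
    (h : ∀ g : G, (∀ q : ℕ, q.Prime → q ∣ orderOf g → q ∈ π) → ∃ a, IsConj (f a) g) :
    kpi π G ≤ Nat.card α := by
  have : ∀ c : {c : ConjClasses G // ∀ x ∈ c.carrier, ∀ r : ℕ, r.Prime → r ∣ orderOf x → r ∈ π},
      ∃ a, ConjClasses.mk (f a) = c.1 := fun ⟨c, hc⟩ => by
    obtain ⟨g, rfl⟩ := ConjClasses.mk_surjective c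
    exact (h g (hc g (mem_carrier_self g))).imp fun a => ConjClasses.mk_eq_mk_iff_isConj.2
  choose s hs using this
  exact Nat.card_le_card_of_injective s fun c d e => Subtype.ext (by rw [← hs c, ← hs d, e])

theorem kpi_le_conj (L : Subgroup G)
    (h : ∀ g : G, (∀ q : ℕ, q.Prime → q ∣ orderOf g → q ∈ π) → ∃ c, c⁻¹ * g * c ∈ L) :
    kpi π G ≤ Nat.card (ConjClasses L) :=
  kpi_le_card (fun a => (Quotient.out a : L)) fun g hg => by
    obtain ⟨c, hc⟩ := h g hg
    refine ⟨ConjClasses.mk ⟨_, hc⟩, (L.subtype.map_isConj (ConjClasses.mk_eq_mk_iff_isConj.1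
      (Quotient.out_eq (ConjClasses.mk (⟨_, hc⟩ : L))))).trans (isConj_iff.2 ⟨c, ?_⟩)⟩
    simp [mul_assoc]

theorem IsH.conj_mem {H : Subgroup G} (h : IsH π H) (g : G)
    (hg : ∀ q : ℕ, q.Prime → q ∣ orderOf g → q ∈ π) : ∃ c, c⁻¹ * g * c ∈ H := by
  obtain ⟨c, -, hc⟩ := h.wiel le_top le_top (Pi.zpowers hg)
  exact ⟨c, Grp.mem_conj_smul_iff.1 (hc (mem_zpowers g))⟩

theorem nil_sup {H P : Subgroup G} (hH : Group.IsNilpotent H) (hP : Group.IsNilpotent P)
    (h : P ≤ centralizer (H : Set G)) : Group.IsNilpotent ↥(H ⊔ P) := by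
  have hc : ∀ (a : H) (b : P), Commute (H.subtype a) (P.subtype b) := fun a b => h b.2 a a.2
  have := Group.nilpotent_of_surjective (H.subtype.noncommCoprod P.subtype hc).rangeRestrict
    (MonoidHom.rangeRestrict_surjective _)
  rwa [MonoidHom.noncommCoprod_range, range_subtype, range_subtype] at this

/-- Robinson's inequality. -/
theorem kpi_le_sum {r : ℕ} [hr : Fact r.Prime] (π σ : Finset ℕ) (hπ : ∀ q ∈ π, q = r ∨ q ∈ σ)
    [Fintype {c : ConjClasses G // ∀ x ∈ c.carrier, ∃ k : ℕ, orderOf x = r ^ k}]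
    (rep : {c : ConjClasses G // ∀ x ∈ c.carrier, ∃ k : ℕ, orderOf x = r ^ k} → G)
    (hrep : ∀ c, ConjClasses.mk (rep c) = c.1) :
    kpi π G ≤ ∑ c, kpi σ (centralizer {rep c}) := by
  rw [← Nat.card_sigma]
  refine kpi_le_card (fun s => rep s.1 * (Quotient.out s.2.1 : centralizer {rep s.1}))
    fun g hc => ?_
  obtain ⟨u, v, hu, hv, ⟨k, hk⟩, hvr, e⟩ := Transfer.exists_pPart_mul (p := r) g
  obtain ⟨j, -, hj⟩ := (Nat.dvd_prime_pow hr.out).1 (orderOf_dvd_of_pow_eq_one hk)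
  let a : {c : ConjClasses G // ∀ x ∈ c.carrier, ∃ k : ℕ, orderOf x = r ^ k} :=
    ⟨ConjClasses.mk u, fun x hx => ⟨j, by rw [orderOf_eq_of_mem_carrier hx, hj]⟩⟩
  obtain ⟨t, ht⟩ := isConj_iff.1 (ConjClasses.mk_eq_mk_iff_isConj.1 (hrep a).symm)
  have huv : Commute u v := by
    obtain ⟨i, rfl⟩ := hu
    obtain ⟨l, rfl⟩ := hv
    exact Commute.zpow_zpow_self g i l
  have hv' : t * v * t⁻¹ ∈ centralizer ({rep a} : Set G) := by
    rw [mem_centralizer_singleton_iff, ← ht]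
    simp only [mul_assoc, inv_mul_cancel_left]
    rw [← mul_assoc v, ← huv.eq, mul_assoc]
  refine ⟨⟨a, ⟨ConjClasses.mk ⟨_, hv'⟩, fun x hx q hq hqx => ?_⟩⟩, ?_⟩
  · rw [orderOf_eq_of_mem_carrier hx, ← Subgroup.orderOf_coe] at hqx
    have hqv : q ∣ orderOf v := by
      rwa [show orderOf (((⟨_, hv'⟩ : centralizer ({rep a} : Set G)) : G)) = orderOf v from
        (MulAut.conj t).orderOf_eq v] at hqx
    rcases hπ q (hc q hq (hqv.trans (orderOf_dvd_of_mem_zpowers hv))) with rfl | h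
    · exact absurd (Nat.Coprime.coprime_dvd_left hqv hvr) (by simpa using hq.one_lt.ne')
    · exact h
  · obtain ⟨s, hs⟩ := isConj_iff.1 (ConjClasses.mk_eq_mk_iff_isConj.1
      (Quotient.out_eq (ConjClasses.mk (⟨_, hv'⟩ : centralizer ({rep a} : Set G)))))
    have hs' := congrArg Subtype.val hs
    simp only [Subgroup.coe_mul, Subgroup.coe_inv] at hs'
    refine isConj_iff.2 ⟨t⁻¹ * s, ?_⟩
    have hsa : (s : G) * rep a = rep a * s := mem_centralizer_singleton_iff.1 s.2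
    set w : G := ((Quotient.out (ConjClasses.mk (⟨_, hv'⟩ : centralizer ({rep a} : Set G))) :
      centralizer ({rep a} : Set G)) : G) with hw
    calc t⁻¹ * (s : G) * (rep a * w) * (t⁻¹ * s)⁻¹
        = t⁻¹ * ((s * rep a) * (s : G)⁻¹ * (s * w * (s : G)⁻¹)) * t := by group
      _ = g := by rw [hs', hsa, mul_inv_cancel_right, ← ht, e]; group

theorem IsH.two_mul_le {H : Subgroup G} (h : IsH π H) (hp : ∀ r ∈ π, p ≤ r) {n : G}
    (hn : n ∈ normalizer (H : Set G)) (hc : ¬ H ≤ centralizer {n}) :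
    2 * p * kpi π G ≤ (p + 1) * Nat.card H := by
  classical
  haveI := Fintype.ofFinite H
  let φ : H → {c : ConjClasses G // ∀ x ∈ c.carrier, ∀ r : ℕ, r.Prime → r ∣ orderOf x → r ∈ π} :=
    fun y => ⟨ConjClasses.mk (y : G), fun x hx r hr hd => h.pi r hr
      ((orderOf_eq_of_mem_carrier hx ▸ hd).trans (orderOf_dvd_natCard H y.2))⟩
  have h1 := card_le_sum_of_fiber φ (fun ⟨c, hc⟩ => by
    obtain ⟨g, rfl⟩ := ConjClasses.mk_surjective c
    obtain ⟨d, hd⟩ := h.conj_mem g (hc g (mem_carrier_self g))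
    exact ⟨⟨_, hd⟩, Subtype.ext (ConjClasses.mk_eq_mk_iff_isConj.2
      (isConj_iff.2 ⟨d, by simp [mul_assoc]⟩))⟩)
    (fun y => (if (y : G) ∈ H ⊓ centralizer {n} then 1 / 2 else 0) + 1 / 2) fun y => by
      split_ifs with hy
      · have h2 : (1 : ℚ) ≤ Nat.card {z // φ z = φ y} := by
          haveI : Nonempty {z // φ z = φ y} := ⟨⟨y, rfl⟩⟩
          exact_mod_cast Nat.card_pos
        linarith
      · have : Nontrivial {z // φ z = φ y} := ⟨⟨y, rfl⟩, ⟨⟨n * y * n⁻¹,
          (mem_normalizer_iff.1 hn y).1 y.2⟩, Subtype.ext (ConjClasses.mk_eq_mk_iff_isConj.2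
            (isConj_iff.2 ⟨n, rfl⟩).symm)⟩, fun e => hy ⟨y.2, mem_centralizer_singleton_iff.2
              (mul_inv_eq_iff_eq_mul.1 (congrArg (fun z => (z.1 : G)) e).symm).symm⟩⟩
        have h2 : (2 : ℚ) ≤ Nat.card {z // φ z = φ y} := by
          exact_mod_cast Finite.one_lt_card
        linarith
  rw [Finset.sum_add_distrib, sum_ite_mem H _ inf_le_left, Finset.sum_const, Finset.card_univ,
    ← Nat.card_eq_fintype_card, nsmul_eq_mul] at h1
  have h2 : p * Nat.card ↥(H ⊓ centralizer {n}) ≤ Nat.card H := by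
    obtain ⟨q, hq, hd⟩ := Nat.exists_prime_and_dvd (n := (H ⊓ centralizer {n}).relIndex H)
      fun e => hc ((relIndex_eq_one.1 e).trans inf_le_right)
    rw [← Grp.card_mul_relIndex (inf_le_left : H ⊓ centralizer {n} ≤ H), mul_comm]
    exact Nat.mul_le_mul_left _ ((hp q (h.pi q hq (hd.trans (relIndex_dvd_card _ _)))).trans
      (Nat.le_of_dvd (Nat.pos_of_ne_zero index_ne_zero_of_finite) hd))
  have h3 : 2 * kpi π G ≤ Nat.card ↥(H ⊓ centralizer {n}) + Nat.card H := by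
    have : (2 * kpi π G : ℚ) ≤ Nat.card ↥(H ⊓ centralizer {n}) + Nat.card H := by linarith
    exact_mod_cast this
  nlinarith [Nat.mul_le_mul_left p h3]

end Cfsg.Agent.PiCls
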