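import Mathlib
import Cfsg.Agent.PiCls.Base

/-! Groups with many classes of `π`-elements have nilpotent Hall `π`-subgroups. -/

set_option autoImplicit false
set_option linter.unusedSectionVars false

namespace Cfsg.Agent.PiCls

open Cfsg Cfsg.Agent.FGS.PCC Subgroup
open scoped Pointwise

universe u

variable {G : Type u} [Group G] [Finite G] {π : Finset ℕ} {p : ℕ}

theorem IsH.exists_norm {H K : Subgroup G} [K.Normal] (h : IsH π H) (hK : H ≤ K) {r : ℕ}
    (hr : r.Prime) (hrK : ¬ r ∣ Nat.card K) {u v : G} (hu : ∃ k, u ^ r ^ k = 1) (huv : Commute u v)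
    (hv : ∀ q : ℕ, q.Prime → q ∣ orderOf v → q ∈ π) :
    ∃ c, c⁻¹ * u * c ∈ normalizer (H : Set G) ∧ c⁻¹ * v * c ∈ H := by
  haveI := Fact.mk hr
  obtain ⟨Y, ⟨h1, h2, h3⟩, hm⟩ := (wellFounded_gt (α := Subgroup G)).has_min
    {Y | v ∈ Y ∧ Pi π Y ∧ zpowers u ≤ normalizer (Y : Set G)} ⟨zpowers v, mem_zpowers v,
      Pi.zpowers hv, zpowers_le.2 (centralizer_le_normalizer _ (by
        rintro _ ⟨n, rfl⟩
        exact (huv.zpow_right n).symm.eq))⟩
  obtain ⟨c, -, hc⟩ := h.wiel le_top le_top h2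
  have h4 := h.conj c
  have h5 : Y = MulAut.conj c • H := by
    by_contra hn
    have h6 := Solv.lt_inf_normalizer_of_isNilpotent h4.nil (lt_of_le_of_ne hc hn)
    obtain ⟨t, ht, hd⟩ := Nat.exists_prime_and_dvd fun e => h6.not_ge (relIndex_eq_one.1 e)
    haveI := Fact.mk ht
    have h7 : MulAut.conj c • H ≤ K := fun x hx => by
      simpa [mul_assoc] using Normal.conj_mem inferInstance _ (hK (Grp.mem_conj_smul_iff.1 hx)) c
    obtain ⟨k, hk⟩ := IsPGroup.iff_card.1 (PLocal.Amb.isPGroup_zpowers hu)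
    obtain ⟨T, hT⟩ := Solv.exists_invariant_sylow (zpowers u) (K ⊓ normalizer (Y : Set G))
      (PLocal.Amb.le_normalizer_inf le_normalizer_of_normal (h3.trans le_normalizer))
      (hk ▸ ((hr.coprime_iff_not_dvd.2 fun h8 =>
        hrK (h8.trans (card_dvd_of_le inf_le_left))).pow_left k))
      (Or.inl inferInstance) t
    have h8 : (T : Subgroup ↥(K ⊓ normalizer (Y : Set G))).map (Subgroup.subtype _) ⊔ Y = Y := by
      by_contra h8
      exact hm _ ⟨mem_sup_right h1, (Pi.of_isPGroup ht (h4.pi t ht ((hd.trans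
        (relIndex_dvd_card _ _)).trans (card_dvd_of_le inf_le_left))) (T.isPGroup'.map _)).sup h2
        ((map_subtype_le _).trans inf_le_right), PLocal.Amb.le_normalizer_sup hT h3⟩
        (lt_of_le_of_ne le_sup_right (Ne.symm h8))
    have h9 : (T : Subgroup ↥(K ⊓ normalizer (Y : Set G))) ≤ Y.subgroupOf _ := fun x hx =>
      h8.le (mem_sup_left (mem_map_of_mem _ hx))
    exact T.not_dvd_index ((hd.trans (Dvd.intro _ (relIndex_mul_relIndex _ _ _ h6.le
      (inf_le_inf_right _ h7)))).trans (index_dvd_of_le h9))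
  subst h5
  refine ⟨c, mem_normalizer_fintype fun n hn => ?_, Grp.mem_conj_smul_iff.1 h1⟩
  have := Grp.mem_conj_smul_iff.1 ((mem_normalizer_iff.1 (h3 (mem_zpowers u)) (c * n * c⁻¹)).1
    (Grp.mem_conj_smul_iff.2 (by simpa [mul_assoc] using hn)))
  simpa [mul_assoc] using this

theorem IsH.of_compl (hπ : ∀ r ∈ π, r.Prime) (h2 : 2 ≤ p) (hp : ∀ r ∈ π, p ≤ r) {r : ℕ}
    (hr : r ∈ π) (hc : HasNormalPComplement r G) {H : Subgroup G} (h : IsH (π.erase r) H)
    (hk : part π G < p * kpi π G) : ∃ L : Subgroup G, IsH π L := by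
  haveI := Fact.mk (hπ r hr)
  obtain ⟨P, K, hN, hK⟩ := hc
  have h1 : ¬ r ∣ Nat.card K := hK.index_eq_card ▸ P.not_dvd_index
  have h3 : H ≤ K := by
    obtain ⟨k, hk⟩ := IsPGroup.iff_card.1 P.isPGroup'
    refine Grp.le_normal_of_coprime_card_index ?_
    rw [hK.symm.index_eq_card, hk]
    exact (Nat.Coprime.symm ((hπ r hr).coprime_iff_not_dvd.2 fun h4 =>
      Finset.notMem_erase r π (h.pi r (hπ r hr) h4))).pow_right k
  have h4 : normalizer (H : Set G) ⊔ K = ⊤ := eq_top_iff.2 fun g _ => by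
    obtain ⟨c, hc, h5⟩ := h.wiel h3 (X := MulAut.conj g • H) (fun x hx => by
      simpa [mul_assoc] using hN.conj_mem _ (h3 (Grp.mem_conj_smul_iff.1 hx)) g) (h.conj g).pi
    have h6 : c⁻¹ * g ∈ normalizer (H : Set G) := mem_normalizer_fintype fun n hn => by
      simpa [mul_assoc] using Grp.mem_conj_smul_iff.1 (h5 (x := g * n * g⁻¹)
        (Grp.mem_conj_smul_iff.2 (by simpa [mul_assoc] using hn)))
    simpa using mul_mem (mem_sup_right hc) (mem_sup_left h6)
  have h5 : (normalizer (H : Set G)).index ∣ Nat.card K := by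
    have e1 := Grp.card_sup_mul_card_inf_of_le_normalizer
      (le_normalizer_of_normal (H := K) (K := normalizer (H : Set G)))
    rw [h4, card_top, ← (normalizer (H : Set G)).card_mul_index, mul_assoc] at e1
    exact Dvd.intro _ (Nat.eq_of_mul_eq_mul_left Nat.card_pos e1)
  obtain ⟨R, r1, r2, r3, r4⟩ := exists_pgroup (hπ r hr) (normalizer (H : Set G))
  have l1 : Pi π (R ⊔ H) := (Pi.of_isPGroup (hπ r hr) hr r2).sup
    (fun q hq hd => Finset.mem_of_mem_erase (h.pi q hq hd)) r1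
  have l2 : ∀ q ∈ π, ¬ q ∣ (R ⊔ H).index := fun q hq hd => by
    by_cases e : q = r
    · have := hd.trans (index_dvd_of_le le_sup_left)
      rw [← relIndex_mul_index r1, e, (hπ r hr).dvd_mul] at this
      exact this.elim r3 fun h6 => h1 (h6.trans h5)
    · exact h.ind q (Finset.mem_erase.2 ⟨e, hq⟩) (hd.trans (index_dvd_of_le le_sup_right))
  refine ⟨_, (small_comm h2 (fun q hq hd => hp q (l1 q hq hd)) ?_).2, l1, l2⟩
  rw [card_eq_part l1 l2]
  refine hk.trans_le (Nat.mul_le_mul_left _ (kpi_le_conj _ fun g hg => ?_))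
  obtain ⟨u, v, ⟨i, rfl⟩, ⟨j, rfl⟩, hu, hv, e⟩ := Transfer.exists_pPart_mul (p := r) g
  obtain ⟨c, c1, c2⟩ := h.exists_norm h3 (hπ r hr) h1 hu (Commute.zpow_zpow_self g i j)
    fun q hq hd => Finset.mem_erase.2 ⟨fun e => hq.one_lt.ne' (Nat.eq_one_of_dvd_coprimes hv hd
      e.dvd), hg q hq (hd.trans (orderOf_dvd_of_mem_zpowers ⟨j, rfl⟩))⟩
  obtain ⟨d, d1, d2⟩ := r4 _ c1 (hu.imp fun k hk => by
    rw [← inv_inv c, inv_inv c⁻¹, conj_pow, hk, mul_one, mul_inv_cancel])
  refine ⟨c * d, ?_⟩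
  have := mul_mem (mem_sup_left (T := H) d2)
    (mem_sup_right ((mem_normalizer_iff''.1 d1 _).1 c2))
  rw [e]
  simpa [mul_assoc] using this

theorem IsH.exists_not_cent {H : Subgroup G} (h : IsH π H) {r : ℕ} [Fact r.Prime] (hr : r ∈ π)
    (hc : ¬ HasNormalPComplement r G) :
    ∃ e ∈ normalizer (H : Set G), e ∉ centralizer (H : Set G) := by
  by_contra hn
  push Not at hn
  obtain ⟨R, r1, r2, r3, -⟩ := exists_pgroup (p := r) Fact.out H
  have r4 : ¬ r ∣ R.index := by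
    rw [← relIndex_mul_index r1, (Fact.out : r.Prime).dvd_mul]
    exact fun h1 => h1.elim r3 (h.ind r hr)
  refine hc ⟨r2.toSylow r4, _, inferInstance, MonoidHom.ker_transferSylow_isComplement' _
    fun g (hg : g ∈ normalizer (R : Set G)) => ?_⟩
  have h1 : H ≤ centralizer (R : Set G) := fun x hx =>
    centralizer_le r1 (hn x (le_normalizer hx))
  obtain ⟨c, c1, c2⟩ := h.wiel h1 (X := MulAut.conj g • H) (fun x hx y hy => by
    have := h1 (Grp.mem_conj_smul_iff.1 hx) _ ((mem_normalizer_iff''.1 hg y).1 hy)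
    calc y * x = g * (g⁻¹ * y * g * (g⁻¹ * x * g)) * g⁻¹ := by group
      _ = _ := by rw [this]; group) (h.conj g).pi
  have h2 : c⁻¹ * g ∈ normalizer (H : Set G) := mem_normalizer_fintype fun n hn => by
    simpa [mul_assoc] using Grp.mem_conj_smul_iff.1 (c2 (x := g * n * g⁻¹)
      (Grp.mem_conj_smul_iff.2 (by simpa [mul_assoc] using hn)))
  have := mul_mem c1 (centralizer_le r1 (hn _ h2))
  rwa [mul_inv_cancel_left] at this

theorem count {s : ℕ} (hπ : ∀ r ∈ π, r.Prime) (hp : ∀ r ∈ π, s + 1 ≤ r) {q : ℕ} [hq : Fact q.Prime]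
    (IH : ∀ C : Subgroup G, part π C < (s + 1) * kpi π C → ∃ L : Subgroup C, IsH π L)
    {H : Subgroup G} (h : IsH π H) {e : G} (he : e ∈ normalizer (H : Set G))
    (he' : e ∉ centralizer (H : Set G)) :
    2 * (s + 1) * kpi (insert q π) G ≤
      Nat.card H * (2 * kp q G + s * kp q (centralizer (H : Set G))) := by
  classical
  let A := {c : ConjClasses G // ∀ x ∈ c.carrier, ∃ k : ℕ, orderOf x = q ^ k}
  let X := {c : ConjClasses (centralizer (H : Set G)) // ∀ x ∈ c.carrier, ∃ k, orderOf x = q ^ k}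
  let φ : X → A := fun c => ⟨ConjClasses.map (Subgroup.subtype _) c.1, by
    obtain ⟨c, hc⟩ := c
    obtain ⟨x, rfl⟩ := ConjClasses.mk_surjective c
    intro y (hy : y ∈ (ConjClasses.mk (x : G)).carrier)
    rw [orderOf_eq_of_mem_carrier hy, Subgroup.orderOf_coe]
    exact hc x (mem_carrier_self x)⟩
  have hH := card_eq_part h.pi h.ind
  have key : ∀ c : A, ∃ x : G, ConjClasses.mk x = c.1 ∧ 2 * (s + 1) * kpi π (centralizer {x}) ≤
      Nat.card H * (2 + s * Nat.card {y // φ y = c}) := by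
    rintro ⟨c, hc⟩
    obtain ⟨x, rfl⟩ := ConjClasses.mk_surjective c
    by_cases h1 : (s + 1) * kpi π (centralizer {x}) ≤ Nat.card H
    · exact ⟨x, rfl, by nlinarith [Nat.zero_le (Nat.card H * (s * Nat.card {y // φ y = ⟨_, hc⟩}))]⟩
    have h2 : ∀ r ∈ π, ¬ r ∣ (centralizer {x}).index := fun r hr hd =>
      h1 ((Nat.mul_le_mul_left _ (kpi_le_part π hπ _)).trans (hH ▸ mul_part_le hπ hp hr hd))
    obtain ⟨L, hL⟩ := IH (centralizer {x}) ((part_le_of_dvd π hπ _).trans_lt (hH ▸ not_le.1 h1))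
    obtain ⟨g, -, hg⟩ := (hL.map hπ h2).wiel le_top le_top h.pi
    have h3 : g * x * g⁻¹ ∈ centralizer (H : Set G) := fun y hy => by
      have := mem_centralizer_singleton_iff.1 (map_subtype_le L (Grp.mem_conj_smul_iff.1 (hg hy)))
      calc y * (g * x * g⁻¹) = g * (g⁻¹ * y * g * x) * g⁻¹ := by group
        _ = _ := by rw [this]; group
    have h4 : ConjClasses.mk (g * x * g⁻¹) = ConjClasses.mk x :=
      ConjClasses.mk_eq_mk_iff_isConj.2 (isConj_iff.2 ⟨g, rfl⟩).symm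
    refine ⟨_, h4, ?_⟩
    generalize g * x * g⁻¹ = z at h3 h4
    have h5 : e * z * e⁻¹ ∈ centralizer (H : Set G) := fun y hy => by
      calc y * (e * z * e⁻¹) = e * (e⁻¹ * y * e * z) * e⁻¹ := by group
        _ = _ := by rw [h3 _ ((mem_normalizer_iff''.1 he y).1 hy)]; group
    have h6 : ConjClasses.mk (e * z * e⁻¹) = ConjClasses.mk x :=
      (ConjClasses.mk_eq_mk_iff_isConj.2 (isConj_iff.2 ⟨e, rfl⟩).symm).trans h4
    let f : ∀ w : centralizer (H : Set G), ConjClasses.mk (w : G) = ConjClasses.mk x →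
        {y // φ y = ⟨_, hc⟩} := fun w hw => ⟨⟨ConjClasses.mk w, fun y hy => by
      rw [orderOf_eq_of_mem_carrier hy, ← Subgroup.orderOf_coe]
      exact hc _ (ConjClasses.mem_carrier_iff_mk_eq.2 hw)⟩, Subtype.ext hw⟩
    by_cases h7 : f ⟨_, h3⟩ h4 = f ⟨_, h5⟩ h6
    · obtain ⟨d, hd⟩ := isConj_iff.1 (ConjClasses.mk_eq_mk_iff_isConj.1
        (congrArg (fun y => y.1.1) h7))
      have h8 : (d : G) * z * (d : G)⁻¹ = e * z * e⁻¹ := congrArg Subtype.val hd
      have h9 : H ≤ centralizer {z} := fun y hy => mem_centralizer_singleton_iff.2 (h3 y hy)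
      have h10 : (d : G)⁻¹ * e ∈ centralizer {z} := mem_centralizer_singleton_iff.2 (by
        calc (d : G)⁻¹ * e * z = (d : G)⁻¹ * (e * z * e⁻¹) * e := by group
          _ = _ := by rw [← h8]; group)
      have h11 := (h.sub h9).two_mul_le hp (n := ⟨_, h10⟩) (by
        rw [← subgroupOf_normalizer_eq h9]
        exact mul_mem (inv_mem (centralizer_le_normalizer _ d.2)) he) fun h11 => he' (by
          have : (d : G)⁻¹ * e ∈ centralizer (H : Set G) := fun y hy => congrArg Subtype.val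
            (mem_centralizer_singleton_iff.1 (h11 (x := ⟨y, h9 hy⟩) hy))
          simpa using mul_mem d.2 this)
      rw [Grp.card_subgroupOf_of_le h9] at h11
      haveI : Nonempty {y // φ y = ⟨_, hc⟩} := ⟨f ⟨_, h3⟩ h4⟩
      nlinarith [Nat.mul_le_mul_left (Nat.card H * s)
        (Nat.card_pos (α := {y // φ y = ⟨_, hc⟩}))]
    · haveI : Nontrivial {y // φ y = ⟨_, hc⟩} := ⟨_, _, h7⟩
      have h8 : kpi π (centralizer {z}) ≤ Nat.card H :=
        (kpi_le_part π hπ _).trans (hH ▸ part_le_of_dvd π hπ _)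
      nlinarith [Nat.mul_le_mul_left (Nat.card H * s)
        (Finite.one_lt_card (α := {y // φ y = ⟨_, hc⟩})), Nat.mul_le_mul_left s h8]
  choose rep hrep hb using key
  haveI := Fintype.ofFinite A
  refine (Nat.mul_le_mul_left _ (kpi_le_sum _ π (fun _ => Finset.mem_insert.1) rep hrep)).trans ?_
  rw [Finset.mul_sum]
  refine (Finset.sum_le_sum fun c _ => hb c).trans_eq ?_
  rw [← Finset.mul_sum, Finset.sum_add_distrib, ← Finset.mul_sum, ← Nat.card_sigma,
    Nat.card_congr (Equiv.sigmaFiberEquiv φ), Finset.sum_const, Finset.card_univ,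
    ← Nat.card_eq_fintype_card, smul_eq_mul, mul_comm _ 2]

theorem part_insert {q : ℕ} [Fact q.Prime] (hq : q ∉ π) (P : Sylow q G) :
    part (insert q π) G = Nat.card P * part π G := by
  rw [part, Finset.prod_insert hq, P.card_eq_multiplicity]

theorem lt_erase (hπ : ∀ r ∈ π, r.Prime) {r : ℕ} (hr : r ∈ π) (h : part π G < p * kpi π G) :
    part (π.erase r) G < p * kpi (π.erase r) G := by
  classical
  haveI := Fact.mk (hπ r hr)
  let R : Sylow r G := default
  let A := {c : ConjClasses G // ∀ x ∈ c.carrier, ∀ q : ℕ, q.Prime → q ∣ orderOf x → q ∈ π.erase r}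
  choose P h1 h2 h3 h4 using fun c : A =>
    exists_pgroup (hπ r hr) (centralizer {(Quotient.out c.1 : G)})
  have h5 := kpi_le_card (π := π) (fun s : Σ c, P c => (s.2 : G) * Quotient.out s.1.1) fun g hg => by
    obtain ⟨u, v, ⟨i, rfl⟩, ⟨j, rfl⟩, hu, hv, e⟩ := Transfer.exists_pPart_mul (p := r) g
    have huv := (Commute.zpow_zpow_self g i j).eq
    let c : A := ⟨ConjClasses.mk (g ^ j), fun x hx q hq hd => by
      rw [orderOf_eq_of_mem_carrier hx] at hd
      exact Finset.mem_erase.2 ⟨fun e => hq.one_lt.ne' (Nat.eq_one_of_dvd_coprimes hv hd e.dvd),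
        hg q hq (hd.trans (orderOf_dvd_of_mem_zpowers ⟨j, rfl⟩))⟩⟩
    obtain ⟨t, ht⟩ := isConj_iff.1 (ConjClasses.mk_eq_mk_iff_isConj.1 (Quotient.out_eq c.1)).symm
    obtain ⟨d, d1, d2⟩ := h4 c (t * g ^ i * t⁻¹) (mem_centralizer_singleton_iff.2 (by
      rw [← ht, ← MulAut.conj_apply, ← MulAut.conj_apply, ← map_mul, huv, map_mul]))
      (hu.imp fun k hk => by rw [conj_pow, hk, mul_one, mul_inv_cancel])
    refine ⟨⟨c, _, d2⟩, isConj_iff.2 ⟨t⁻¹ * d, ?_⟩⟩
    have d3 := mem_centralizer_singleton_iff.1 d1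
    calc _ = t⁻¹ * (t * g ^ i * t⁻¹ * (d * Quotient.out c.1) * d⁻¹) * t := by simp [mul_assoc]
      _ = g ^ i * g ^ j := by rw [d3, ← ht]; group
      _ = g := e.symm
  haveI := Fintype.ofFinite A
  have h6 : ∀ c, Nat.card (P c) ≤ Nat.card R := fun c => by
    obtain ⟨Q, hQ⟩ := (h2 c).exists_le_sylow
    exact (card_le_of_le hQ).trans_eq (by rw [Q.card_eq_multiplicity, R.card_eq_multiplicity])
  rw [Nat.card_sigma] at h5
  have h7 := h5.trans (Finset.sum_le_card_nsmul _ _ _ fun c _ => h6 c)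
  rw [Finset.card_univ, ← Nat.card_eq_fintype_card, smul_eq_mul] at h7
  have h8 := part_insert (Finset.notMem_erase r π) R
  rw [Finset.insert_erase hr] at h8
  refine Nat.lt_of_mul_lt_mul_left (a := Nat.card R) ?_
  rw [← h8]
  exact h.trans_le ((Nat.mul_le_mul_left p h7).trans_eq (by ring))

theorem exists_isH (π : Finset ℕ) (hπ : ∀ r ∈ π, r.Prime) (h2 : 2 ≤ p) (hp : ∀ r ∈ π, p ≤ r)
    (G : Type u) [Group G] [Finite G] (h : part π G < p * kpi π G) : ∃ H : Subgroup G, IsH π H := by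
  induction π using Finset.strongInduction generalizing G with | H π ih => ?_
  have IH : ∀ r ∈ π, ∀ (G : Type u) [Group G] [Finite G],
      part (π.erase r) G < p * kpi (π.erase r) G → ∃ H : Subgroup G, IsH (π.erase r) H :=
    fun r hr G _ _ => ih _ (Finset.erase_ssubset hr) (fun q hq => hπ q (Finset.mem_of_mem_erase hq))
      (fun q hq => hp q (Finset.mem_of_mem_erase hq)) G
  by_cases h1 : ∃ r ∈ π, HasNormalPComplement r G
  · obtain ⟨r, hr, h1⟩ := h1
    obtain ⟨H, hH⟩ := IH r hr G (lt_erase hπ hr h)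
    exact hH.of_compl hπ h2 hp hr h1 h
  push Not at h1
  rcases π.eq_empty_or_nonempty with rfl | ⟨q, hq⟩
  · exact ⟨⊥, inferInstance, fun q hq hd => absurd (Nat.dvd_one.1 (card_bot (G := G) ▸ hd)) hq.ne_one,
      by simp⟩
  haveI := Fact.mk (hπ q hq)
  obtain ⟨H, hH⟩ := IH q hq G (lt_erase hπ hq h)
  obtain ⟨P, p1, p2, p3, -⟩ := exists_pgroup (hπ q hq) (centralizer (H : Set G))
  by_cases h3 : q ∣ (centralizer (H : Set G)).index
  swap
  · refine ⟨H ⊔ P, nil_sup hH.nil p2.isNilpotent p1, sup_comm H P ▸ (Pi.of_isPGroup (hπ q hq) hq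
      p2).sup (fun r hr hd => Finset.mem_of_mem_erase (hH.pi r hr hd))
      (p1.trans (centralizer_le_normalizer _)), fun r hr hd => ?_⟩
    by_cases e : r = q
    · have := hd.trans (index_dvd_of_le le_sup_right)
      rw [← relIndex_mul_index p1, e, (hπ q hq).dvd_mul] at this
      exact this.elim p3 h3
    · exact hH.ind r (Finset.mem_erase.2 ⟨e, hr⟩) (hd.trans (index_dvd_of_le le_sup_left))
  exfalso
  obtain ⟨r, hr⟩ : (π.erase q).Nonempty := by
    by_contra h4
    rw [eq_bot_of_card_eq H (Nat.eq_one_iff_not_exists_prime_dvd.2 fun r hr hd =>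
      h4 ⟨r, hH.pi r hr hd⟩)] at h3
    rw [centralizer_eq_top_iff_subset.2 (bot_le (a := center G)), index_top] at h3
    exact (hπ q hq).not_dvd_one h3
  haveI := Fact.mk (hπ r (Finset.mem_of_mem_erase hr))
  obtain ⟨e, he, he'⟩ := hH.exists_not_cent hr (h1 r (Finset.mem_of_mem_erase hr))
  obtain ⟨s, rfl⟩ : ∃ s, p = s + 1 := ⟨p - 1, by omega⟩
  have h4 := count (q := q) (fun q hq => hπ q (Finset.mem_of_mem_erase hq))
    (fun q hq => hp q (Finset.mem_of_mem_erase hq)) (fun C => IH q hq C) hH he he'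
  let Q : Sylow q G := default
  have h5 := part_insert (Finset.notMem_erase q π) Q
  rw [Finset.insert_erase hq] at h4 h5
  rw [h5, ← card_eq_part hH.pi hH.ind] at h
  have h6 := bound_of_not_hasNormalPComplement Q (h1 q hq)
  have h7 : q * kp q (centralizer (H : Set G)) ≤ Nat.card Q := by
    have := mul_part_le (π := {q}) (p := q) (by simpa using hπ q hq) (by simp)
      (Finset.mem_singleton_self q) h3
    rw [part, part, Finset.prod_singleton, Finset.prod_singleton, ← Q.card_eq_multiplicity,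
      ← Sylow.card_eq_multiplicity default] at this
    exact (Nat.mul_le_mul_left _ (kp_le_card _)).trans this
  have h8 := hp q hq
  generalize Nat.card H = a, Nat.card Q = b, kp q G = c, kp q (centralizer (H : Set G)) = d,
    kpi π G = k at h h4 h6 h7
  have h9 : q * (2 * c + s * d) ≤ 2 * q * b := by
    nlinarith [Nat.mul_le_mul_left s h7, Nat.mul_le_mul_right b h8]
  have h10 : 2 * c + s * d ≤ 2 * b := Nat.le_of_mul_le_mul_left (by linarith) (hπ q hq).pos
  nlinarith [Nat.mul_le_mul_left a h10]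

theorem main (π : Set ℕ) (hπ : ∀ q ∈ π, q.Prime) (p : ℕ) (hp : p ∈ π) (hmin : ∀ q ∈ π, p ≤ q)
    (m : ℕ) (hm : m ∣ Nat.card G) (hmπ : ∀ q : ℕ, q.Prime → q ∣ m → q ∈ π)
    (hm' : ∀ q ∈ π, ¬ q ∣ Nat.card G / m) (k : ℕ) (hk : k = Nat.card {C : ConjClasses G //
      ∀ q : ℕ, q.Prime → (∃ g : G, ConjClasses.mk g = C ∧ q ∣ orderOf g) → q ∈ π})
    (hmany : m < p * k) : ∃ H : Subgroup G, Nat.card H = m ∧ Group.IsNilpotent H ∧
      k ≤ Nat.card (ConjClasses H) ∧ ∀ q : ℕ, q.Prime → q ∣ Nat.card H → p ≤ q := by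
  classical
  let σ := (Nat.card G).primeFactors.filter (· ∈ π)
  have h1 : ∀ q ∈ σ, q ∈ π := fun q hq => (Finset.mem_filter.1 hq).2
  have h2 : ∀ q : ℕ, q.Prime → q ∣ Nat.card G → q ∈ π → q ∈ σ := fun q hq hd h =>
    Finset.mem_filter.2 ⟨Nat.mem_primeFactors.2 ⟨hq, hd, Nat.card_pos.ne'⟩, h⟩
  have h3 : part σ G = m := by
    obtain ⟨n, hn⟩ := hm
    have h0 : m * n ≠ 0 := hn ▸ Nat.card_pos.ne'
    rw [hn, Nat.mul_div_cancel_left _ (Nat.pos_of_ne_zero (left_ne_zero_of_mul h0))] at hm'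
    change pp σ (Nat.card G) = m
    rw [hn, pp_mul (left_ne_zero_of_mul h0) (right_ne_zero_of_mul h0),
      pp_eq_one fun q hq => hm' q (h1 q hq), mul_one]
    exact pp_eq_self (left_ne_zero_of_mul h0) fun q hq hd =>
      h2 q hq (hn ▸ hd.mul_right n) (hmπ q hq hd)
  have h4 : k = kpi σ G := hk.trans (Nat.card_congr (Equiv.subtypeEquivRight fun C =>
    ⟨fun h x hx q hq hd => h2 q hq (hd.trans (orderOf_dvd_natCard x))
      (h q hq ⟨x, ConjClasses.mem_carrier_iff_mk_eq.1 hx, hd⟩),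
      fun h q hq ⟨x, hx, hd⟩ => h1 q (h x (ConjClasses.mem_carrier_iff_mk_eq.2 hx) q hq hd)⟩))
  obtain ⟨H, hH⟩ := exists_isH σ (fun q hq => hπ q (h1 q hq)) (hπ p hp).two_le
    (fun q hq => hmin q (h1 q hq)) G (h3 ▸ h4 ▸ hmany)
  exact ⟨H, (card_eq_part hH.pi hH.ind).trans h3, hH.nil, h4 ▸ kpi_le_conj H hH.conj_mem,
    fun q hq hd => hmin q (h1 q (hH.pi q hq hd))⟩

end Cfsg.Agent.PiCls
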